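import Cfsg.Agent.Lib.NormalPComplement.Thompson
import Cfsg.Agent.Lib.FusionSub.TransvectionS4

/-!
An offender on an elementary abelian `2`-group that does not centralize an abelian odd-order part
of the acting group forces a section isomorphic to the symmetric group of degree 4.
-/

set_option autoImplicit false
set_option linter.style.haveILetI false

open scoped Pointwise commutatorElement

namespace CfsgLib.NormalPComplement

open Cfsg

variable {G : Type*} [Group G] [Finite G]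

/-- A minimal offender inside an offender centralizes all its commutators with the module. -/
theorem exists_minimal_offender {p : ℕ} [Fact p.Prime] {V A : Subgroup G}
    (hVab : IsMulCommutative V) (hAab : IsMulCommutative A) (hVp : IsPGroup p V)
    (hAp : IsPGroup p A) (hAV : A ≤ Subgroup.normalizer (V : Set G))
    (hA : ¬ A ≤ Subgroup.centralizer (V : Set G))
    (hoff : ∀ B ≤ A, Nat.card B * Nat.card ↥(V ⊓ Subgroup.centralizer (B : Set G)) ≤
      Nat.card A * Nat.card ↥(V ⊓ Subgroup.centralizer (A : Set G))) :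
    ∃ B : Subgroup G, B ≤ A ∧ ¬ B ≤ Subgroup.centralizer (V : Set G) ∧
      (∀ C ≤ B, Nat.card C * Nat.card ↥(V ⊓ Subgroup.centralizer (C : Set G)) ≤
        Nat.card B * Nat.card ↥(V ⊓ Subgroup.centralizer (B : Set G))) ∧
      ∀ v ∈ V, ∀ b ∈ B, ∀ c ∈ B, c * ⁅v, b⁆ = ⁅v, b⁆ * c := by
  obtain ⟨B, hB⟩ : ∃ B, Minimal (fun B : Subgroup G => B ≤ A ∧
      ¬ B ≤ Subgroup.centralizer (V : Set G) ∧
      Nat.card B * Nat.card ↥(V ⊓ Subgroup.centralizer (B : Set G)) =
        Nat.card A * Nat.card ↥(V ⊓ Subgroup.centralizer (A : Set G))) B :=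
    Set.Finite.exists_minimal (Set.toFinite _) ⟨A, le_rfl, hA, rfl⟩
  obtain ⟨hBA, hBV, hBeq⟩ := hB.prop
  have hBab : IsMulCommutative B := isMulCommutative_iff_le_centralizer.2
    ((hBA.trans (isMulCommutative_iff_le_centralizer.1 hAab)).trans (Subgroup.centralizer_le hBA))
  refine ⟨B, hBA, hBV, fun C hC => hBeq ▸ hoff C (hC.trans hBA), fun v hv b hb c hc => ?_⟩
  obtain ⟨B₁, X, hB₁B, hXc, hB₁X, hmem, hle, hcard⟩ :=
    offender_step hVab hBab (hBA.trans hAV) hv
  have h1 : Nat.card ↥(X ⊔ (V ⊓ Subgroup.centralizer (B : Set G))) ≤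
      Nat.card ↥(V ⊓ Subgroup.centralizer (B₁ : Set G)) :=
    Nat.le_of_dvd Nat.card_pos (Subgroup.card_dvd_of_le hle)
  have h2 := hoff B₁ (hB₁B.trans hBA)
  have h3 : Nat.card B₁ * Nat.card ↥(X ⊔ (V ⊓ Subgroup.centralizer (B : Set G))) ≤
      Nat.card B₁ * Nat.card ↥(V ⊓ Subgroup.centralizer (B₁ : Set G)) := Nat.mul_le_mul_left _ h1
  have heq : Nat.card B₁ * Nat.card ↥(V ⊓ Subgroup.centralizer (B₁ : Set G)) =
      Nat.card A * Nat.card ↥(V ⊓ Subgroup.centralizer (A : Set G)) :=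
    le_antisymm h2 (by omega)
  have hBB₁ : B ≤ B₁ := by
    by_contra hne
    have hB₁V : B₁ ≤ Subgroup.centralizer (V : Set G) := by
      by_contra hnot
      exact hne (hB.2 ⟨hB₁B.trans hBA, hnot, heq⟩ hB₁B)
    have hC : V ⊓ Subgroup.centralizer (B₁ : Set G) = V :=
      inf_eq_left.2 (Subgroup.le_centralizer_iff.1 hB₁V)
    have hVeq : V ≤ X ⊔ (V ⊓ Subgroup.centralizer (B : Set G)) := by
      have h4 : Nat.card V ≤ Nat.card ↥(X ⊔ (V ⊓ Subgroup.centralizer (B : Set G))) := by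
        have h5 : Nat.card B₁ * Nat.card ↥(V ⊓ Subgroup.centralizer (B₁ : Set G)) ≤
            Nat.card B₁ * Nat.card ↥(X ⊔ (V ⊓ Subgroup.centralizer (B : Set G))) := by omega
        rw [hC] at h5
        exact Nat.le_of_mul_le_mul_left h5 Nat.card_pos
      exact (Subgroup.eq_of_le_of_card_ge (hle.trans inf_le_left) h4).ge
    have hcomm : ⁅V, B⁆ ≤ ⁅⁅V, B⁆, B⁆ := by
      rw [Subgroup.commutator_le]
      intro w hw d hd
      have hVn : V ≤ Subgroup.normalizer ((⁅V, B⁆ : Subgroup G) : Set G) :=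
        le_sup_left.trans (CoprimeAction.sup_le_normalizer_commutator B V)
      have hw' : w ∈ ⁅V, B⁆ ⊔ (V ⊓ Subgroup.centralizer (B : Set G)) :=
        sup_le_sup_right hXc _ (hVeq hw)
      rw [← SetLike.mem_coe, Subgroup.coe_mul_of_right_le_normalizer_left _ _
        ((inf_le_left (b := Subgroup.centralizer (B : Set G))).trans hVn), Set.mem_mul] at hw'
      obtain ⟨x, hx, z, hz, rfl⟩ := hw'
      have e : ⁅x * z, d⁆ = ⁅x, d⁆ := by
        have hzd : d * z = z * d := Subgroup.mem_centralizer_iff.1 hz.2 d hd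
        calc x * z * d * (x * z)⁻¹ * d⁻¹ = x * (z * d * z⁻¹) * x⁻¹ * d⁻¹ := by simp [mul_assoc]
          _ = x * d * x⁻¹ * d⁻¹ := by rw [← hzd]; simp
      rw [e]
      exact Subgroup.commutator_mem_commutator hx hd
    have hP : IsPGroup p ↥(V ⊔ B) :=
      hVp.to_sup_of_normal_left' (hAp.to_le hBA) (hBA.trans hAV)
    haveI := hP.isNilpotent
    have hbot := eq_bot_of_le_commutator
      ((CoprimeAction.commutator_le_left (hBA.trans hAV)).trans le_sup_left)
      (le_sup_right (a := V)) hcomm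
    exact hBV (Subgroup.le_centralizer_iff.1 (Subgroup.commutator_eq_bot_iff_le_centralizer.1 hbot))
  exact (Subgroup.mem_centralizer_iff.1 (hB₁X (hBB₁ hc)) _ (hmem b hb)).symm

omit [Finite G] in
/-- Odd order: fixed by the square means fixed. -/
theorem commute_of_sq_commute {k u : G} (hk : (orderOf k).Coprime 2) (h : Commute (k ^ 2) u) :
    Commute k u := by
  obtain ⟨m, hm⟩ := exists_pow_eq_self_of_coprime hk.symm
  exact hm ▸ h.pow_left m

/-- A group acting on a four-group with an element of order `3` and a transvection involves `S₄`. -/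
theorem involves_perm_four_of_four {U : Subgroup G} (hU4 : Nat.card U = 4)
    (hUe : ∀ u ∈ U, u * u = 1) {k a : G} (hk : k ∈ Subgroup.normalizer (U : Set G))
    (ha : a ∈ Subgroup.normalizer (U : Set G))
    (hkfree : ∀ u ∈ U, k * u = u * k → u = 1)
    (hidx : (U ⊓ Subgroup.centralizer ({a} : Set G)).relIndex U = 2) :
    Involves (Equiv.Perm (Fin 4)) G := by
  haveI : Fact (Nat.Prime 2) := ⟨Nat.prime_two⟩
  obtain ⟨H, hH⟩ : ∃ H, H = Subgroup.normalizer (U : Set G) := ⟨_, rfl⟩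
  rw [← hH] at hk ha
  have hUH : U ≤ H := hH ▸ Subgroup.le_normalizer
  haveI hVn : (U.subgroupOf H).Normal := by subst hH; exact Subgroup.normal_in_normalizer
  obtain ⟨V, hV⟩ : ∃ V, V = U.subgroupOf H := ⟨_, rfl⟩
  haveI : V.Normal := hV ▸ hVn
  have hcomm : ∀ x ∈ U, ∀ y ∈ U, x * y = y * x := fun x hx y hy => by
    calc x * y = (x * y)⁻¹ := (inv_eq_of_mul_eq_one_right (hUe _ (mul_mem hx hy))).symm
      _ = y * x := by
        rw [mul_inv_rev, inv_eq_of_mul_eq_one_right (hUe x hx),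
          inv_eq_of_mul_eq_one_right (hUe y hy)]
  have hVab : IsMulCommutative V := by
    subst hV
    exact ⟨⟨fun x y => Subtype.ext (Subtype.ext (hcomm _ x.2 _ y.2))⟩⟩
  have hV2 : IsPGroup 2 V := by
    subst hV
    intro x
    exact ⟨1, Subtype.ext (Subtype.ext (by simpa [pow_two] using hUe _ x.2))⟩
  have hVcard : Nat.card V = 4 := by
    rw [hV, Nat.card_congr (Subgroup.subgroupOfEquivOfLe hUH).toEquiv, hU4]
  have key : Involves (Equiv.Perm (Fin 4)) H := by
    refine FusionSub.involves_perm_four_of_transvection (V := V) hV2 hVab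
      (fun X hX hX2 => ?_) (a := ⟨a, ha⟩) ?_ ?_
    · haveI := hX
      -- a fixed point of `X` generates `V` under `k`
      let φ : H →* MulAut V := MulAut.conjNormal
      have hφ : ∀ x ∈ X, ∀ v : V, φ x v = v → (x : H) * v = v * x := fun x _ v hv => by
        have := congrArg Subtype.val hv
        rw [MulAut.conjNormal_apply] at this
        exact mul_inv_eq_iff_eq_mul.1 this
      have hXp : IsPGroup 2 (X.map φ) := by
        rintro ⟨_, x, hx, rfl⟩
        obtain ⟨e, he⟩ := hX2 x hx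
        refine ⟨e, Subtype.ext ?_⟩
        show φ x ^ 2 ^ e = 1
        rw [← map_pow]
        ext v : 2
        rw [MulAut.conjNormal_apply, MulAut.one_apply]
        exact mul_inv_eq_iff_eq_mul.2 (Subgroup.mem_centralizer_iff.1 he v v.2).symm
      obtain ⟨w, hwfix, hw1⟩ := hXp.exists_fixed_point_of_prime_dvd_card_of_fixed_point V
        (by rw [hVcard]; norm_num) (a := 1) (fun g => map_one (g : MulAut V))
      have hwc : ∀ x ∈ X, (x : H) * w = w * x := fun x hx =>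
        hφ x hx w (hwfix ⟨φ x, x, hx, rfl⟩)
      obtain ⟨F, hF⟩ : ∃ F, F = V ⊓ Subgroup.centralizer (X : Set H) := ⟨_, rfl⟩
      haveI : F.Normal := hF ▸ inferInstance
      have hwF : (w : H) ∈ F := hF ▸ ⟨w.2, fun x hx => hwc x hx⟩
      have hFV : V ≤ F := by
        obtain ⟨c, hc⟩ : ∃ c : H, c = ⟨k, hk⟩ := ⟨_, rfl⟩
        have hcw : c * w * c⁻¹ ∈ F := Subgroup.Normal.conj_mem inferInstance _ hwF c
        have hw1' : (w : H) ≠ 1 := fun e => hw1 (Subtype.ext e).symm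
        have hne : c * w * c⁻¹ ≠ w := by
          intro e
          refine hw1' (Subtype.ext ?_)
          have hwU : ((w : H) : G) ∈ U := by
            have := w.2; simpa [hV, Subgroup.mem_subgroupOf] using this
          exact hkfree _ hwU (by
            have := congrArg Subtype.val (mul_inv_eq_iff_eq_mul.1 e)
            simpa [hc] using this)
        have h3 : 3 ≤ Nat.card F := by
          classical
          haveI := Fintype.ofFinite F
          rw [Nat.card_eq_fintype_card]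
          have hcard : ({1, ⟨w, hwF⟩, ⟨_, hcw⟩} : Finset F).card = 3 := by
            rw [Finset.card_insert_of_notMem, Finset.card_pair]
            · exact fun e => hne (congrArg Subtype.val e).symm
            · simp only [Finset.mem_insert, Finset.mem_singleton, not_or]
              refine ⟨fun e => hw1' (congrArg Subtype.val e).symm, fun e => hw1' ?_⟩
              have := (congrArg Subtype.val e).symm
              simpa [mul_inv_eq_one] using this
          exact hcard ▸ Finset.card_le_univ _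
        have hd : Nat.card F ∣ 4 := hVcard ▸ Subgroup.card_dvd_of_le (hF ▸ inf_le_left)
        have h4 : Nat.card F = 4 := by
          have := Nat.le_of_dvd (by norm_num) hd
          interval_cases h : Nat.card F <;> omega
        exact (Subgroup.eq_of_le_of_card_ge (hF ▸ inf_le_left : F ≤ V)
          (by rw [h4, hVcard])).ge
      exact Subgroup.le_centralizer_iff.1 (hFV.trans (hF ▸ inf_le_right))
    · intro hc
      have hUa : U ≤ Subgroup.centralizer ({a} : Set G) := fun u hu => by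
        have := congrArg Subtype.val (Subgroup.mem_centralizer_iff.1 hc ⟨u, hUH hu⟩
          (by rw [hV]; exact hu))
        exact Subgroup.mem_centralizer_singleton_iff.2 this
      rw [inf_eq_left.2 hUa, Subgroup.relIndex_self] at hidx
      omega
    · have e : V ⊓ Subgroup.centralizer ({(⟨a, ha⟩ : H)} : Set H) =
          (U ⊓ Subgroup.centralizer ({a} : Set G)).subgroupOf H := by
        ext x
        simp [hV, Subgroup.mem_subgroupOf, Subgroup.mem_centralizer_singleton_iff, Subtype.ext_iff]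
      rw [e, hV, ← Subgroup.subgroupOf_inj.2 rfl]
      rw [Subgroup.relIndex_subgroupOf hUH]
      exact hidx
  exact Amalgams.involves_of_involves_image (A := H) (MonoidHom.id H) key Function.surjective_id

set_option maxHeartbeats 1000000 in
/-- **An offender gives a section `S₄`.** `B` is an abelian quadratic offender on the normal
elementary abelian `2`-group `V`; `b₀ ∈ B` does not commute, modulo `C(V)`, with the element `k₀`
of odd order, and the elements of odd order of `G ⧸ C(V)` commute. -/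
theorem involves_perm_four_of_offender {V B : Subgroup G} [V.Normal]
    (hVe : ∀ v ∈ V, v * v = 1) (hBab : IsMulCommutative B)
    (hoff : ∀ C ≤ B, Nat.card C * Nat.card ↥(V ⊓ Subgroup.centralizer (C : Set G)) ≤
      Nat.card B * Nat.card ↥(V ⊓ Subgroup.centralizer (B : Set G)))
    (hquad : ∀ v ∈ V, ∀ b ∈ B, ∀ c ∈ B, c * ⁅v, b⁆ = ⁅v, b⁆ * c)
    (hcomm : ∀ x y : G ⧸ Subgroup.centralizer (V : Set G),
      (orderOf x).Coprime 2 → (orderOf y).Coprime 2 → Commute x y)
    {b₀ k₀ : G} (hb₀ : b₀ ∈ B) (hk₀ : (orderOf k₀).Coprime 2)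
    (hne : ⁅b₀, k₀⁆ ∉ Subgroup.centralizer (V : Set G)) :
    Involves (Equiv.Perm (Fin 4)) G := by
  classical
  haveI : Fact (Nat.Prime 2) := ⟨Nat.prime_two⟩
  obtain ⟨π, hπ⟩ : ∃ π : G →* G ⧸ Subgroup.centralizer (V : Set G), π = QuotientGroup.mk' _ :=
    ⟨_, rfl⟩
  have hker : ∀ g, π g = 1 ↔ g ∈ Subgroup.centralizer (V : Set G) := fun g => by
    rw [hπ]; exact QuotientGroup.eq_one_iff g
  -- conjugation on `V` only depends on the coset
  have hact : ∀ g g', π g = π g' → ∀ v ∈ V, g * v * g⁻¹ = g' * v * g'⁻¹ := by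
    intro g g' e v hv
    have h1 : g'⁻¹ * g ∈ Subgroup.centralizer (V : Set G) := by
      rw [← hker, map_mul, map_inv, e, inv_mul_cancel]
    have h2 := Subgroup.mem_centralizer_iff.1 h1 v hv
    calc g * v * g⁻¹ = g' * ((g'⁻¹ * g) * v) * g⁻¹ := by simp [mul_assoc]
      _ = g' * v * g'⁻¹ := by rw [← h2]; simp [mul_assoc]
  have hVc : ∀ x ∈ V, ∀ y ∈ V, x * y = y * x := fun x hx y hy => by
    calc x * y = (x * y)⁻¹ := (inv_eq_of_mul_eq_one_right (hVe _ (mul_mem hx hy))).symm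
      _ = y * x := by
        rw [mul_inv_rev, inv_eq_of_mul_eq_one_right (hVe x hx),
          inv_eq_of_mul_eq_one_right (hVe y hy)]
  have hcj : ∀ (g : G), ∀ v ∈ V, g * v * g⁻¹ ∈ V := fun g v hv =>
    Subgroup.Normal.conj_mem inferInstance v hv g
  have hfixB : ∀ b ∈ B, ∀ c ∈ B, ∀ v ∈ V, c * ⁅v, b⁆ * c⁻¹ = ⁅v, b⁆ := fun b hb c hc v hv => by
    rw [hquad v hv b hb c hc, mul_inv_cancel_right]
  -- `π B` consists of commuting involutions
  have hinv : ∀ b ∈ B, π b * π b = 1 := by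
    intro b hb
    rw [← map_mul, hker]
    refine Subgroup.mem_centralizer_iff.2 fun v hv => ?_
    have h1 : ⁅v, b⁆ ∈ V := by
      have e : ⁅v, b⁆ = v * (b * v⁻¹ * b⁻¹) := by simp [commutatorElement_def, mul_assoc]
      exact e ▸ mul_mem hv (hcj b _ (inv_mem hv))
    have e : b * v * b⁻¹ = ⁅v, b⁆⁻¹ * v := by simp [commutatorElement_def, mul_assoc]
    have e2 : b * b * v * (b * b)⁻¹ = v := by
      calc b * b * v * (b * b)⁻¹ = b * (b * v * b⁻¹) * b⁻¹ := by simp [mul_assoc]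
        _ = b * (⁅v, b⁆⁻¹ * v) * b⁻¹ := by rw [e]
        _ = (b * ⁅v, b⁆ * b⁻¹)⁻¹ * (b * v * b⁻¹) := by
            generalize ⁅v, b⁆ = t
            simp [mul_assoc]
        _ = ⁅v, b⁆⁻¹ * ⁅v, b⁆⁻¹ * v := by rw [hfixB b hb b hb v hv, e, mul_assoc]
        _ = v := by rw [← mul_inv_rev, hVe _ h1, inv_one, one_mul]
    exact (mul_inv_eq_iff_eq_mul.1 e2).symm
  have hBc : ∀ b ∈ B, ∀ c ∈ B, Commute (π b) (π c) := fun b hb c hc =>
    Commute.map (Subgroup.mem_centralizer_iff.1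
      (isMulCommutative_iff_le_centralizer.1 hBab hc) b hb) π
  -- an odd element inverted by `b₀` and fixed or inverted by all of `B`
  have hconj : ∀ (g x : G ⧸ Subgroup.centralizer (V : Set G)), (orderOf x).Coprime 2 →
      (orderOf (g * x * g⁻¹)).Coprime 2 := fun g x hx => by
    rwa [← MulAut.conj_apply, MulEquiv.orderOf_eq]
  have hmul : ∀ x y : G ⧸ Subgroup.centralizer (V : Set G), (orderOf x).Coprime 2 →
      (orderOf y).Coprime 2 → (orderOf (x * y)).Coprime 2 := fun x y hx hy =>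
    Nat.Coprime.coprime_dvd_left ((hcomm x y hx hy).orderOf_mul_dvd_lcm.trans (Nat.lcm_dvd_mul _ _))
      (hx.mul_left hy)
  have step : ∀ s : Finset G, (∀ c ∈ s, c ∈ B) →
      ∃ y, (orderOf y).Coprime 2 ∧ y ≠ 1 ∧ π b₀ * y * (π b₀)⁻¹ = y⁻¹ ∧
        ∀ c ∈ s, π c * y * (π c)⁻¹ = y ∨ π c * y * (π c)⁻¹ = y⁻¹ := by
    intro s
    induction s using Finset.induction with
    | empty =>
      intro _
      have hk : (orderOf (π k₀)).Coprime 2 := hk₀.coprime_dvd_left (orderOf_map_dvd π k₀)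
      refine ⟨π b₀ * π k₀ * (π b₀)⁻¹ * (π k₀)⁻¹, hmul _ _ (hconj _ _ hk) (by rwa [orderOf_inv]),
        fun e => hne ((hker _).1 (by rw [← e]; simp [commutatorElement_def])), ?_, by simp⟩
      have h1 := (hcomm _ _ (hconj (π b₀) _ hk) (by rwa [orderOf_inv] :
        (orderOf (π k₀)⁻¹).Coprime 2)).eq
      have hbb : (π b₀)⁻¹ = π b₀ := inv_eq_of_mul_eq_one_right (hinv b₀ hb₀)
      rw [mul_inv_rev, inv_inv]
      calc π b₀ * (π b₀ * π k₀ * (π b₀)⁻¹ * (π k₀)⁻¹) * (π b₀)⁻¹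
          = (π b₀ * π b₀) * π k₀ * (π b₀ * π b₀)⁻¹ * (π b₀ * (π k₀)⁻¹ * (π b₀)⁻¹) := by
            simp [mul_assoc]
        _ = _ := by
            rw [hinv b₀ hb₀]
            simp [mul_assoc]
    | insert c s hcs ih =>
      intro hs
      obtain ⟨y, hy, hy1, hyb, hys⟩ := ih fun d hd => hs d (Finset.mem_insert_of_mem hd)
      have hcB := hs c (Finset.mem_insert_self c s)
      obtain ⟨z, hz⟩ : ∃ z, z = π c * y * (π c)⁻¹ := ⟨_, rfl⟩
      have hz2 : (orderOf z).Coprime 2 := hz ▸ hconj _ _ hy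
      have hyz : Commute y z := hcomm _ _ hy hz2
      have hczc : π c * z * (π c)⁻¹ = y := by
        rw [hz, show π c * (π c * y * (π c)⁻¹) * (π c)⁻¹ = π c * π c * y * (π c * π c)⁻¹ by
          simp [mul_assoc], hinv c hcB, one_mul, inv_one, mul_one]
      have hswap : ∀ d ∈ B, π d * z * (π d)⁻¹ = π c * (π d * y * (π d)⁻¹) * (π c)⁻¹ := by
        intro d hd
        have e := (hBc d hd c hcB).eq
        calc π d * z * (π d)⁻¹ = π d * π c * y * (π d * π c)⁻¹ := by rw [hz]; simp [mul_assoc]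
          _ = _ := by rw [e]; simp [mul_assoc]
      by_cases h1 : y * z = 1
      · refine ⟨y, hy, hy1, hyb, Finset.forall_mem_insert _ _ _ |>.2 ⟨Or.inr ?_, hys⟩⟩
        rw [← hz]
        exact eq_inv_of_mul_eq_one_right h1
      refine ⟨y * z, hmul _ _ hy hz2, h1, ?_, Finset.forall_mem_insert _ _ _ |>.2 ⟨Or.inl ?_,
        fun d hd => ?_⟩⟩
      · rw [← conj_mul, hyb, hswap b₀ hb₀, hyb, ← conj_inv, ← hz, ← mul_inv_rev, hyz.eq]
      · rw [← conj_mul, ← hz, hczc, hyz.eq]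
      · have hdB := hs d (Finset.mem_insert_of_mem hd)
        rw [← conj_mul, hswap d hdB]
        rcases hys d hd with e | e <;> rw [e]
        · exact Or.inl (by rw [← hz])
        · exact Or.inr (by rw [← conj_inv, ← hz, ← mul_inv_rev, hyz.eq])
  haveI := Fintype.ofFinite G
  obtain ⟨y, hy, hy1, hyb, hys⟩ := step (Finset.univ.filter (· ∈ B)) (by simp)
  have hys' : ∀ c ∈ B, π c * y * (π c)⁻¹ = y ∨ π c * y * (π c)⁻¹ = y⁻¹ :=
    fun c hc => hys c (by simpa using hc)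
  obtain ⟨k, hk, hky⟩ : ∃ k : G, (orderOf k).Coprime 2 ∧ π k = y := by
    obtain ⟨g, hg⟩ := (hπ ▸ QuotientGroup.mk'_surjective _ : Function.Surjective π) y
    obtain ⟨e, he⟩ := exists_pow_coprime_orderOf (p := 2) (isOfFinOrder_of_finite g)
    obtain ⟨m, hm⟩ := exists_pow_eq_self_of_coprime (x := y) (hy.symm.pow_left e)
    exact ⟨(g ^ 2 ^ e) ^ m, he.coprime_dvd_left (orderOf_pow_dvd m),
      by rw [map_pow, map_pow, hg, hm]⟩
  have hk2 : ∀ v ∈ V, ∀ w, k * v * k⁻¹ = k⁻¹ * w * k → v = w → k * v = v * k := by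
    intro v _ w e e'
    rw [← e'] at e
    refine (commute_of_sq_commute hk ?_).eq
    refine mul_inv_eq_iff_eq_mul.1 ?_
    calc k ^ 2 * v * (k ^ 2)⁻¹ = k * (k * v * k⁻¹) * k⁻¹ := by simp [pow_two, mul_assoc]
      _ = v := by rw [e]; simp [mul_assoc]
  have hb₀k : ∀ v ∈ V, b₀ * (k * v * k⁻¹) * b₀⁻¹ = k⁻¹ * (b₀ * v * b₀⁻¹) * k := by
    intro v hv
    have := hact (b₀ * k) (k⁻¹ * b₀) (by
      rw [map_mul, map_mul, map_inv, hky, ← hyb, inv_mul_cancel_right]) v hv
    simpa [mul_assoc] using this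
  -- the kernel of the sign
  obtain ⟨B₁, hB₁⟩ : ∃ B₁, B₁ = B ⊓ (Subgroup.centralizer ({y} : Set _)).comap π := ⟨_, rfl⟩
  have hB₁mem : ∀ c, c ∈ B₁ ↔ c ∈ B ∧ π c * y * (π c)⁻¹ = y := fun c => by
    rw [hB₁, Subgroup.mem_inf, Subgroup.mem_comap, Subgroup.mem_centralizer_singleton_iff,
      mul_inv_eq_iff_eq_mul]
  have hB₁B : B₁ ≤ B := hB₁ ▸ inf_le_left
  have hidxB : Nat.card B ≤ 2 * Nat.card B₁ := by
    have hle : (B₁.subgroupOf B).index ≤ 2 := by
      rw [Subgroup.index_eq_card]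
      have hsurj : Function.Surjective (fun i : Bool => cond i
          (QuotientGroup.mk (1 : B) : B ⧸ B₁.subgroupOf B) (QuotientGroup.mk (⟨b₀, hb₀⟩ : B))) := by
        intro q
        obtain ⟨⟨c, hc⟩, rfl⟩ := QuotientGroup.mk_surjective q
        rcases hys' c hc with e | e
        · refine ⟨true, QuotientGroup.eq.2 ?_⟩
          simpa [Subgroup.mem_subgroupOf, hB₁mem] using And.intro hc e
        · refine ⟨false, QuotientGroup.eq.2 ?_⟩
          have hbb : (π b₀)⁻¹ = π b₀ := inv_eq_of_mul_eq_one_right (hinv b₀ hb₀)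
          rw [Subgroup.mem_subgroupOf, hB₁mem]
          refine ⟨mul_mem (inv_mem hb₀) hc, ?_⟩
          show π (b₀⁻¹ * c) * y * (π (b₀⁻¹ * c))⁻¹ = y
          rw [map_mul, map_inv, hbb, show π b₀ * π c * y * (π b₀ * π c)⁻¹ =
            π b₀ * (π c * y * (π c)⁻¹) * (π b₀)⁻¹ by simp [mul_assoc], e, ← conj_inv, hyb, inv_inv]
      simpa using Nat.card_le_card_of_surjective _ hsurj
    have h2 := Subgroup.card_mul_index (B₁.subgroupOf B)
    rw [Nat.card_congr (Subgroup.subgroupOfEquivOfLe hB₁B).toEquiv] at h2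
    rw [← h2, mul_comm 2]
    exact Nat.mul_le_mul_left _ hle
  -- the commutators of `V` with `k`
  let U : Subgroup G :=
    { carrier := {u | ∃ v ∈ V, ⁅k, v⁆ = u}
      one_mem' := ⟨1, one_mem _, by simp⟩
      mul_mem' := by
        rintro _ _ ⟨v, hv, rfl⟩ ⟨w, hw, rfl⟩
        refine ⟨v * w, mul_mem hv hw, ?_⟩
        have h1 : ⁅k, w⁆ ∈ V := mul_mem (hcj k w hw) (inv_mem hw)
        calc ⁅k, v * w⁆ = ⁅k, v⁆ * (v * ⁅k, w⁆ * v⁻¹) := by simp [commutatorElement_def, mul_assoc]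
          _ = ⁅k, v⁆ * ⁅k, w⁆ := by rw [hVc v hv _ h1, mul_inv_cancel_right]
      inv_mem' := by
        rintro _ ⟨v, hv, rfl⟩
        have h1 : ⁅k, v⁆ ∈ V := mul_mem (hcj k v hv) (inv_mem hv)
        exact ⟨v, hv, (inv_eq_of_mul_eq_one_right (hVe _ h1)).symm⟩ }
  have hUmem : ∀ u, u ∈ U ↔ ∃ v ∈ V, ⁅k, v⁆ = u := fun u => Iff.rfl
  have hUV : U ≤ V := by
    rintro _ ⟨v, hv, rfl⟩
    exact mul_mem (hcj k v hv) (inv_mem hv)
  have hfree : ∀ u ∈ U, k * u = u * k → u = 1 := by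
    rintro _ ⟨v, hv, rfl⟩ e
    obtain ⟨u, hu⟩ : ∃ u, u = ⁅k, v⁆ := ⟨_, rfl⟩
    rw [← hu] at e ⊢
    have h1 := conj_pow_right (k := k) (x := v) (y := u) (mul_inv_eq_iff_eq_mul.2 e)
      (by rw [hu]; simp [commutatorElement_def]) (orderOf k)
    simp only [pow_orderOf_eq_one, one_mul, inv_one, mul_one, right_eq_mul] at h1
    exact orderOf_eq_one_iff.1 (Nat.eq_one_of_dvd_coprimes hk.symm
      (orderOf_dvd_of_pow_eq_one (by rw [pow_two]; exact hVe _ (hu ▸ hUV ⟨v, hv, rfl⟩)))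
      (orderOf_dvd_of_pow_eq_one h1))
  have hkU : k ∈ Subgroup.normalizer (U : Set G) := by
    refine CoprimeAction.mem_normalizer_of_conj_mem ?_
    rintro _ ⟨v, hv, rfl⟩
    exact ⟨k * v * k⁻¹, hcj k v hv, by simp [commutatorElement_def, mul_assoc]⟩
  have hbU : b₀ ∈ Subgroup.normalizer (U : Set G) := by
    refine CoprimeAction.mem_normalizer_of_conj_mem ?_
    rintro _ ⟨v, hv, rfl⟩
    obtain ⟨v', hv'⟩ : ∃ v', v' = b₀ * v * b₀⁻¹ := ⟨_, rfl⟩
    have hv'V : v' ∈ V := hv' ▸ hcj b₀ v hv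
    have e : b₀ * ⁅k, v⁆ * b₀⁻¹ = ⁅k, k⁻¹ * v' * k⁆⁻¹ := by
      calc b₀ * ⁅k, v⁆ * b₀⁻¹ = (b₀ * (k * v * k⁻¹) * b₀⁻¹) * (b₀ * v * b₀⁻¹)⁻¹ := by
            simp [commutatorElement_def, mul_assoc]
        _ = _ := by
            rw [hb₀k v hv, ← hv']
            simp [commutatorElement_def, mul_assoc]
    rw [e]
    refine inv_mem ⟨_, ?_, rfl⟩
    simpa using hcj k⁻¹ v' hv'V
  -- `B₁` centralizes `U`
  have hB₁U : U ≤ V ⊓ Subgroup.centralizer (B₁ : Set G) := by
    refine le_inf hUV ?_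
    rintro _ ⟨v, hv, rfl⟩
    refine Subgroup.mem_centralizer_iff.2 fun c hc => ?_
    obtain ⟨hcB, hcy⟩ := (hB₁mem c).1 hc
    have hck : ∀ w ∈ V, c * (k * w * k⁻¹) * c⁻¹ = k * (c * w * c⁻¹) * k⁻¹ := fun w hw => by
      have := hact (c * k) (k * c) (by
        rw [map_mul, map_mul, hky, mul_inv_eq_iff_eq_mul.1 hcy]) w hw
      simpa [mul_assoc] using this
    obtain ⟨w, hw⟩ : ∃ w, w = ⁅v, c⁆ := ⟨_, rfl⟩
    have hwV : w ∈ V := by
      have e : ⁅v, c⁆ = v * (c * v⁻¹ * c⁻¹) := by simp [commutatorElement_def, mul_assoc]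
      exact hw ▸ e ▸ mul_mem hv (hcj c _ (inv_mem hv))
    have hcv : c * v * c⁻¹ = w⁻¹ * v := by rw [hw]; simp [commutatorElement_def, mul_assoc]
    have hkw : k * w * k⁻¹ = ⁅k * v * k⁻¹, c⁆ := by
      have e := hck v⁻¹ (inv_mem hv)
      calc k * w * k⁻¹ = (k * v * k⁻¹) * (k * (c * v⁻¹ * c⁻¹) * k⁻¹) := by
            rw [hw]; simp [commutatorElement_def, mul_assoc]
        _ = _ := by rw [← e]; simp [commutatorElement_def, mul_assoc]
    have hb0w : b₀ * w * b₀⁻¹ = w := hw ▸ hfixB c hcB b₀ hb₀ v hv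
    have hb0kw : b₀ * (k * w * k⁻¹) * b₀⁻¹ = k * w * k⁻¹ := by
      rw [hkw]; exact hfixB c hcB b₀ hb₀ _ (hcj k v hv)
    have hkfix : k * w = w * k :=
      hk2 w hwV w (by rw [← hb0kw, hb₀k w hwV, hb0w]) rfl
    have hkwi : k * w⁻¹ * k⁻¹ = w⁻¹ := by
      rw [← conj_inv, mul_inv_eq_iff_eq_mul.2 hkfix]
    refine mul_inv_eq_iff_eq_mul.1 ?_
    calc c * ⁅k, v⁆ * c⁻¹ = (c * (k * v * k⁻¹) * c⁻¹) * (c * v * c⁻¹)⁻¹ := by
          simp [commutatorElement_def, mul_assoc]
      _ = (k * w⁻¹ * k⁻¹) * (k * v * k⁻¹) * (w⁻¹ * v)⁻¹ := by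
          rw [hck v hv, hcv]; simp [mul_assoc]
      _ = w⁻¹ * ⁅k, v⁆ * w := by rw [hkwi]; simp [commutatorElement_def, mul_assoc]
      _ = ⁅k, v⁆ := by
          have hkvV : ⁅k, v⁆ ∈ V := mul_mem (hcj k v hv) (inv_mem hv)
          rw [hVc _ (inv_mem hwV) _ hkvV, inv_mul_cancel_right]
  -- sizes
  obtain ⟨H₀, hH₀⟩ : ∃ H₀, H₀ = U ⊓ Subgroup.centralizer ({b₀} : Set G) := ⟨_, rfl⟩
  have hH₀fix : ∀ u ∈ H₀, b₀ * u * b₀⁻¹ = u := fun u hu => by
    rw [hH₀] at hu
    rw [← Subgroup.mem_centralizer_singleton_iff.1 hu.2, mul_inv_cancel_right]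
  have hU2 : Nat.card U ≤ 2 * Nat.card H₀ := by
    obtain ⟨W, hW⟩ : ∃ W, W = V ⊓ Subgroup.centralizer (B : Set G) := ⟨_, rfl⟩
    have h1 := card_mul_card_le_card_sup_mul_card_inf U W
    have h2 : Nat.card ↥(U ⊓ W) ≤ Nat.card H₀ := by
      refine Nat.le_of_dvd Nat.card_pos (Subgroup.card_dvd_of_le (hH₀ ▸ inf_le_inf_left U ?_))
      rw [hW]
      exact inf_le_right.trans (Subgroup.centralizer_le (by simpa using hb₀))
    have h3 : Nat.card ↥(U ⊔ W) ≤ Nat.card ↥(V ⊓ Subgroup.centralizer (B₁ : Set G)) :=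
      Nat.le_of_dvd Nat.card_pos (Subgroup.card_dvd_of_le
        (sup_le hB₁U (hW ▸ inf_le_inf_left V (Subgroup.centralizer_le hB₁B))))
    have h4 := hoff B₁ hB₁B
    rw [← hW] at h4
    have hW0 : 0 < Nat.card W := Nat.card_pos
    have h5 : Nat.card ↥(V ⊓ Subgroup.centralizer (B₁ : Set G)) ≤ 2 * Nat.card W := by
      refine Nat.le_of_mul_le_mul_left ?_ (Nat.card_pos (α := B₁))
      calc _ ≤ Nat.card B * Nat.card W := h4
        _ ≤ 2 * Nat.card B₁ * Nat.card W := Nat.mul_le_mul_right _ hidxB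
        _ = _ := by ring
    refine Nat.le_of_mul_le_mul_right ?_ hW0
    calc _ ≤ Nat.card ↥(U ⊔ W) * Nat.card ↥(U ⊓ W) := h1
      _ ≤ 2 * Nat.card W * Nat.card H₀ := Nat.mul_le_mul (h3.trans h5) h2
      _ = _ := by ring
  have hH₀k : H₀ ⊓ H₀.map (MulAut.conj k).toMonoidHom = ⊥ := by
    rw [eq_bot_iff]
    rintro _ ⟨hu, w, hw, rfl⟩
    have hwU : w ∈ U := (hH₀ ▸ inf_le_left : H₀ ≤ U) hw
    have e : b₀ * (k * w * k⁻¹) * b₀⁻¹ = k * w * k⁻¹ := hH₀fix _ hu
    rw [hb₀k w (hUV hwU), hH₀fix w hw] at e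
    rw [Subgroup.mem_bot]
    show k * w * k⁻¹ = 1
    rw [hfree w hwU (hk2 w (hUV hwU) w e.symm rfl)]
    simp
  have hH₀le : Nat.card H₀ ≤ 2 := by
    have h1 := card_mul_card_le_card_sup_mul_card_inf H₀ (H₀.map (MulAut.conj k).toMonoidHom)
    rw [hH₀k, Subgroup.card_bot, mul_one,
      Subgroup.card_map_of_injective (MulAut.conj k).injective] at h1
    have h2 : H₀ ⊔ H₀.map (MulAut.conj k).toMonoidHom ≤ U := by
      refine sup_le (hH₀ ▸ inf_le_left) ?_
      rintro _ ⟨w, hw, rfl⟩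
      exact (Subgroup.mem_normalizer_iff.1 hkU w).1 ((hH₀ ▸ inf_le_left : H₀ ≤ U) hw)
    have h3 := h1.trans ((Nat.le_of_dvd Nat.card_pos (Subgroup.card_dvd_of_le h2)).trans hU2)
    exact Nat.le_of_mul_le_mul_right h3 Nat.card_pos
  obtain ⟨v, hv, hv1⟩ : ∃ v ∈ V, ⁅k, v⁆ ≠ 1 := by
    by_contra h
    push Not at h
    refine hy1 ?_
    rw [← hky, hker]
    exact Subgroup.mem_centralizer_iff.2 fun v hv =>
      (commutatorElement_eq_one_iff_mul_comm.1 (h v hv)).symm
  have hUc : 3 ≤ Nat.card U := by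
    obtain ⟨u, hu⟩ : ∃ u, u = ⁅k, v⁆ := ⟨_, rfl⟩
    have huU : u ∈ U := hu ▸ ⟨v, hv, rfl⟩
    have hkuU : k * u * k⁻¹ ∈ U := (Subgroup.mem_normalizer_iff.1 hkU u).1 huU
    haveI := Fintype.ofFinite U
    rw [Nat.card_eq_fintype_card]
    have hcard : ({1, ⟨u, huU⟩, ⟨_, hkuU⟩} : Finset U).card = 3 := by
      rw [Finset.card_insert_of_notMem, Finset.card_pair]
      · intro e
        refine hv1 (hu ▸ hfree u huU ?_)
        exact mul_inv_eq_iff_eq_mul.1 (congrArg Subtype.val e).symm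
      · simp only [Finset.mem_insert, Finset.mem_singleton, not_or]
        refine ⟨fun e => hv1 (hu ▸ (congrArg Subtype.val e).symm), fun e => hv1 (hu ▸ ?_)⟩
        have := (congrArg Subtype.val e).symm
        simpa [mul_inv_eq_one] using this
    exact hcard ▸ Finset.card_le_univ _
  have hUp : IsPGroup 2 U := fun u => ⟨1, Subtype.ext (by
    simpa [pow_two] using hVe _ (hUV u.2))⟩
  have hU4 : Nat.card U = 4 := by
    obtain ⟨n, hn⟩ := IsPGroup.iff_card.1 hUp
    have h4 : Nat.card U ≤ 4 := hU2.trans (by omega)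
    rw [hn] at hUc h4 ⊢
    have : n ≤ 2 := (Nat.pow_le_pow_iff_right (by norm_num : 1 < 2)).1 h4
    interval_cases n <;> omega
  refine involves_perm_four_of_four hU4 (fun u hu => hVe u (hUV hu)) hkU hbU hfree ?_
  rw [← hH₀]
  have hle : H₀ ≤ U := hH₀ ▸ inf_le_left
  have h1 := Subgroup.card_mul_index (H₀.subgroupOf U)
  rw [Nat.card_congr (Subgroup.subgroupOfEquivOfLe hle).toEquiv, hU4] at h1
  show (H₀.subgroupOf U).index = 2
  have h2 : 2 ≤ Nat.card H₀ := by omega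
  have h3 : Nat.card H₀ = 2 := by omega
  rw [h3] at h1
  omega

end CfsgLib.NormalPComplement
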