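import Cfsg.Agent.Lib.NormalPComplement.OffenderSFour
import Cfsg.Agent.Lib.Amalgams.Involves

/-!
Thompson's normal `2`-complement theorem for groups without sections isomorphic to the symmetric
group of degree 4; the reduction is run inside a class closed under subgroups and quotients.
-/

set_option autoImplicit false
set_option linter.style.haveILetI false

open scoped Pointwise commutatorElement

universe u

namespace CfsgLib.NormalPComplement

open Cfsg

variable {p : ℕ}

section Driver

variable [hp : Fact p.Prime] {W Z : ∀ (G : Type u) [Group G], Subgroup G → Subgroup G}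
  {P : ∀ (G : Type u) [Group G], Prop} {G : Type u} [Group G] [Finite G]

/-- One step of the reduction: proper subgroups containing a Sylow subgroup. -/
theorem hasNormalPComplement_proper_hered (hW : IsPFunctor p W) (hZ : IsPFunctor p Z)
    (hPs : ∀ (H : Type u) [Group H] (M : Subgroup H), P H → P M)
    (hPq : ∀ (H : Type u) [Group H] (N : Subgroup H) [N.Normal], P H → P (H ⧸ N))
    (hG' : P G)
    (ih : ∀ (H : Type u) [Group H] [Finite H], P H → Nat.card H < Nat.card G → ∀ T : Sylow p H,
      ThompsonHyp p W Z H T → HasNormalPComplement p H)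
    {U : Sylow p G} (hU : ThompsonHyp p W Z G U) {M : Subgroup G}
    (hUM : (U : Subgroup G) ≤ M) (hM : M ≠ ⊤) : HasNormalPComplement p M := by
  have hlt : Nat.card M < Nat.card G :=
    lt_of_le_of_ne (Subgroup.card_le_card_group M) fun e => hM (Subgroup.eq_top_of_card_eq M e)
  refine ih M (hPs _ M hG') hlt (U.subtype hUM) (thompsonHyp_map hW hZ M.subtype M.subtype_injective
    (U.subtype hUM).2 ?_)
  rw [Sylow.coe_subtype, Subgroup.map_subgroupOf_eq_of_le hUM]
  exact hU

/-- Some non-trivial `p`-subgroup is normal. -/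
theorem pCore_ne_bot_of_counterexample_hered (hW : IsPFunctor p W) (hZ : IsPFunctor p Z)
    (hPs : ∀ (H : Type u) [Group H] (M : Subgroup H), P H → P M)
    (hPq : ∀ (H : Type u) [Group H] (N : Subgroup H) [N.Normal], P H → P (H ⧸ N))
    (hG' : P G)
    (ih : ∀ (H : Type u) [Group H] [Finite H], P H → Nat.card H < Nat.card G → ∀ T : Sylow p H,
      ThompsonHyp p W Z H T → HasNormalPComplement p H)
    (S : Sylow p G) (hS : ThompsonHyp p W Z G S) (hG : ¬ HasNormalPComplement p G) :
    pCore p G ≠ ⊥ := by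
  classical
  let F : Set (Subgroup G) := {R | IsPGroup p R ∧ R ≠ ⊥ ∧
    ¬ HasNormalPComplement p ↥(Subgroup.normalizer (R : Set G))}
  have hF : F.Nonempty := by
    by_contra hne
    refine hG (hasNormalPComplement_of_local fun Q hQ hQ1 => ?_)
    by_contra hn
    exact hne ⟨Q, hQ, hQ1, hn⟩
  obtain ⟨R, hR, hmax⟩ := F.toFinite.exists_maximalFor
    (fun R : Subgroup G => (Nat.card ↥(Subgroup.normalizer (R : Set G))).factorization p) F hF
  obtain ⟨hRp, hR1, hRn⟩ := hR
  generalize hN : Subgroup.normalizer (R : Set G) = N at hRn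
  by_cases hNtop : N = ⊤
  · intro e
    haveI : R.Normal := Subgroup.normalizer_eq_top_iff.1 (hN.trans hNtop)
    exact hR1 (le_bot_iff.1 (e ▸ Cores.le_pCore hRp))
  exfalso
  obtain ⟨T⟩ := (inferInstance : Nonempty (Sylow p N))
  obtain ⟨T', hT'⟩ : ∃ T' : Subgroup G, T' = (T : Subgroup N).map N.subtype := ⟨_, rfl⟩
  have hT'p : IsPGroup p T' := hT' ▸ T.2.map _
  have hT'N : T' ≤ N := hT' ▸ Subgroup.map_subtype_le _
  have hcard : Nat.card T' = p ^ (Nat.card N).factorization p := by
    rw [hT', Subgroup.card_map_of_injective N.subtype_injective, T.card_eq_multiplicity]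
  have hRT : R ≤ T' := by
    have hRN : R ≤ N := hN ▸ Subgroup.le_normalizer
    haveI : (R.subgroupOf N).Normal := by subst hN; exact Subgroup.normal_in_normalizer
    rw [hT', ← Subgroup.map_subgroupOf_eq_of_le hRN]
    exact Subgroup.map_mono (IsPGroup.le_sylow_of_normal (N := R.subgroupOf N) hRp.comap_subtype T)
  obtain ⟨U, hTU⟩ := hT'p.exists_le_sylow
  have hU := thompsonHyp_sylow hW hZ S U hS
  rcases hTU.eq_or_lt with heq | hlt
  · exact hRn (hasNormalPComplement_proper_hered hW hZ hPs hPq hG' ih hU (heq ▸ hT'N) hNtop)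
  have hne : T' ≠ ⊥ := fun e => hR1 (le_bot_iff.1 (e ▸ hRT))
  have hloc : ∀ V : ∀ (G : Type u) [Group G], Subgroup G → Subgroup G, IsPFunctor p V →
      HasNormalPComplement p ↥(Subgroup.normalizer (V G T' : Set G)) := by
    intro V hV
    by_contra hn
    have hmem : V G T' ∈ F :=
      ⟨hT'p.to_le (hV.le G T' hT'p), hV.ne_bot G T' hT'p hne, hn⟩
    have h1 : T' < (U : Subgroup G) ⊓ Subgroup.normalizer (T' : Set G) :=
      inf_normalizer_gt U.2 hlt
    obtain ⟨m, hm⟩ := IsPGroup.iff_card.1 (U.2.to_inf_left (K := Subgroup.normalizer (T' : Set G)))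
    have h2 : p ^ m ∣ Nat.card ↥(Subgroup.normalizer (V G T' : Set G)) :=
      hm ▸ Subgroup.card_dvd_of_le (inf_le_right.trans (hV.normalizer_le hT'p))
    have h3 := (Set.Finite.card_lt_card (Set.toFinite _) h1 :
      Nat.card T' < Nat.card ↥((U : Subgroup G) ⊓ Subgroup.normalizer (T' : Set G)))
    simp only [SetLike.coe_sort_coe] at h3
    rw [hcard, hm, Nat.pow_lt_pow_iff_right (Nat.Prime.one_lt Fact.out)] at h3
    have h4 := ((Fact.out : p.Prime).pow_dvd_iff_le_factorization Nat.card_pos.ne').1 h2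
    have h5 := hmax hmem (by simp only [hN]; omega)
    simp only [hN] at h5
    omega
  refine hRn (ih N (hPs _ N hG') (lt_of_le_of_ne (Subgroup.card_le_card_group N)
    fun e => hNtop (Subgroup.eq_top_of_card_eq N e)) T
    (thompsonHyp_map hW hZ N.subtype N.subtype_injective T.2 ?_))
  rw [← hT']
  exact ⟨hloc W hW, hasNormalPComplement_of_le (Subgroup.centralizer_le_normalizer _) (hloc Z hZ)⟩

/-- In a minimal counterexample without normal `p'`-subgroups the quotient by `O_p` is
`p`-nilpotent. -/
theorem hasNormalPComplement_quotient_pCore_hered (hW : IsPFunctor p W) (hZ : IsPFunctor p Z)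
    (hPs : ∀ (H : Type u) [Group H] (M : Subgroup H), P H → P M)
    (hPq : ∀ (H : Type u) [Group H] (N : Subgroup H) [N.Normal], P H → P (H ⧸ N))
    (hG' : P G)
    (ih : ∀ (H : Type u) [Group H] [Finite H], P H → Nat.card H < Nat.card G → ∀ T : Sylow p H,
      ThompsonHyp p W Z H T → HasNormalPComplement p H)
    (S : Sylow p G) (hS : ThompsonHyp p W Z G S) (hQ : pCore p G ≠ ⊥) :
    HasNormalPComplement p (G ⧸ pCore p G) := by
  let π := QuotientGroup.mk' (pCore p G)
  let T : Sylow p (G ⧸ pCore p G) := S.mapSurjective (QuotientGroup.mk'_surjective (pCore p G))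
  by_cases hT : (T : Subgroup (G ⧸ pCore p G)) = ⊥
  · exact hasNormalPComplement_of_coprime
      ((Nat.Prime.coprime_iff_not_dvd Fact.out).2 (not_dvd_of_sylow_eq_bot T hT)).symm
  have hloc : ∀ V : ∀ (G : Type u) [Group G], Subgroup G → Subgroup G, IsPFunctor p V →
      HasNormalPComplement p
        ↥(Subgroup.normalizer (V (G ⧸ pCore p G) T : Set (G ⧸ pCore p G))) := by
    intro V hV
    obtain ⟨X, hX⟩ : ∃ X : Subgroup (G ⧸ pCore p G), X = V (G ⧸ pCore p G) T := ⟨_, rfl⟩
    rw [← hX]
    have hXp : IsPGroup p X := hX ▸ T.2.to_le (hV.le _ _ T.2)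
    obtain ⟨M, hM⟩ : ∃ M : Subgroup G, M = Subgroup.normalizer (X.comap π : Set G) := ⟨_, rfl⟩
    have hMX : M = (Subgroup.normalizer (X : Set (G ⧸ pCore p G))).comap π := by
      rw [hM, Subgroup.comap_normalizer_eq_of_surjective _ (QuotientGroup.mk'_surjective _)]
    have hSM : (S : Subgroup G) ≤ M := by
      intro s hs
      rw [hMX, Subgroup.mem_comap]
      refine hX ▸ hV.normalizer_le T.2 (Subgroup.le_normalizer ?_)
      exact ⟨s, hs, rfl⟩
    have hne : M ≠ ⊤ := by
      intro e
      haveI : (X.comap π).Normal := Subgroup.normalizer_eq_top_iff.1 (hM ▸ e)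
      have hle : X.comap π ≤ pCore p G := Cores.le_pCore (hXp.comap_of_ker_isPGroup π (by
        rw [QuotientGroup.ker_mk']; exact Cores.isPGroup_pCore p G))
      refine hV.ne_bot _ _ T.2 hT (hX ▸ eq_bot_iff.2 fun x hx => ?_)
      obtain ⟨g, rfl⟩ := QuotientGroup.mk'_surjective (pCore p G) x
      exact (QuotientGroup.eq_one_iff g).2 (hle hx)
    refine hasNormalPComplement_of_le_map π ?_ (hasNormalPComplement_proper_hered hW hZ hPs hPq hG' ih hS hSM hne)
    rw [hMX, Subgroup.map_comap_eq_self_of_surjective (QuotientGroup.mk'_surjective _)]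
  refine ih _ (hPq _ _ hG') ?_ T ⟨hloc W hW,
    hasNormalPComplement_of_le (Subgroup.centralizer_le_normalizer _) (hloc Z hZ)⟩
  have hmul := Subgroup.card_eq_card_quotient_mul_card_subgroup (pCore p G)
  have h1 : 1 < Nat.card (pCore p G) := Subgroup.one_lt_card_iff_ne_bot _ |>.2 hQ
  rw [hmul]
  exact lt_mul_of_one_lt_right Nat.card_pos h1

/-- **The reduction.** If no critical group satisfies the hypothesis, the hypothesis implies a
normal `p`-complement. -/
theorem hasNormalPComplement_of_thompsonHyp_hered (hW : IsPFunctor p W) (hZ : IsPFunctor p Z)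
    (hPs : ∀ (H : Type u) [Group H] (M : Subgroup H), P H → P M)
    (hPq : ∀ (H : Type u) [Group H] (N : Subgroup H) [N.Normal], P H → P (H ⧸ N))
    (hP : P G)
    (hcrit : ∀ (H : Type u) [Group H] [Finite H] (T : Sylow p H), P H → IsCritical T →
      ThompsonHyp p W Z H T → False)
    (S : Sylow p G) (hS : ThompsonHyp p W Z G S) : HasNormalPComplement p G := by
  suffices h : ∀ (n : ℕ) (H : Type u) [Group H] [Finite H], Nat.card H = n → P H → ∀ T : Sylow p H,
      ThompsonHyp p W Z H T → HasNormalPComplement p H from h _ G rfl hP S hS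
  intro n
  induction n using Nat.strong_induction_on with
  | _ n ih =>
  intro H _ _ hcard hG' T hT
  have ih' : ∀ (K : Type u) [Group K] [Finite K], P K → Nat.card K < Nat.card H → ∀ U : Sylow p K,
      ThompsonHyp p W Z K U → HasNormalPComplement p K :=
    fun K _ _ hK hlt U hU => ih _ (hcard ▸ hlt) K rfl hK U hU
  by_contra hnot
  have hK : pPrimeCore p H = ⊥ := by
    by_contra hne
    refine hnot (hasNormalPComplement_of_quotient (pPrimeCore p H)
      (Cores.card_pPrimeCore_coprime p) (ih' _ (hPq _ _ hG') ?_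
        (T.mapSurjective (QuotientGroup.mk'_surjective _))
        (thompsonHyp_quotient_pPrime hW hZ T hT _ (Cores.card_pPrimeCore_coprime p))))
    rw [Subgroup.card_eq_card_quotient_mul_card_subgroup (pPrimeCore p H)]
    exact lt_mul_of_one_lt_right Nat.card_pos (Subgroup.one_lt_card_iff_ne_bot _ |>.2 hne)
  have hQ := pCore_ne_bot_of_counterexample_hered hW hZ hPs hPq hG' ih' T hT hnot
  have hq := hasNormalPComplement_quotient_pCore_hered hW hZ hPs hPq hG' ih' T hT hQ
  have hC := centralizer_pCore_le_of_quotient hK hq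
  have hmax : ∀ M : Subgroup H, (T : Subgroup H) ≤ M → M = (T : Subgroup H) ∨ M = ⊤ := by
    intro M hTM
    by_contra hM
    push Not at hM
    have hMn := hasNormalPComplement_proper_hered hW hZ hPs hPq hG' ih' hT hTM hM.2
    refine hM.1 (T.3 (isPGroup_of_forall_coprime fun c hc hc' => ?_) hTM)
    have hQM : pCore p H ≤ M := (Cores.pCore_le_sylow T).trans hTM
    have hcent : c ∈ Subgroup.centralizer (pCore p H : Set H) := by
      refine Subgroup.mem_centralizer_iff.2 fun x hx => ?_
      have h := commute_of_normal_pGroup hMn (Q := (pCore p H).subgroupOf M)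
        (Cores.isPGroup_pCore p H).comap_subtype (g := ⟨c, hc⟩) (x := ⟨x, hQM hx⟩)
        (by rwa [← orderOf_injective M.subtype M.subtype_injective]) hx
      exact congrArg Subtype.val h.eq
    obtain ⟨n, hn⟩ := IsPGroup.iff_card.1 (Cores.isPGroup_pCore p H)
    exact orderOf_eq_one_iff.1 (Nat.eq_one_of_dvd_coprimes (hc'.pow_right n) dvd_rfl
      (hn ▸ Subgroup.orderOf_dvd_natCard _ (hC hcent)))
  exact hcrit H T hG' ⟨hnot, hK, hC, hmax, fun k l hk hl => isCritical_comm hq hmax hk hl,
    fun a ha hfix => isCritical_faith hnot hmax ha hfix⟩ hT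

end Driver

section Critical

variable {G : Type*} [Group G] [Finite G] [Fact (Nat.Prime 2)]

/-- An abelian subgroup `A ≰ O₂(G)` of `S` of largest order in a critical group forces a section
`S₄`. -/
theorem involves_perm_four_of_isCritical {S : Sylow 2 G} (h : IsCritical S)
    (hZ : HasNormalPComplement 2 ↥(Subgroup.centralizer
      (((S : Subgroup G) ⊓ Subgroup.centralizer ((S : Subgroup G) : Set G) : Subgroup G) : Set G)))
    {A : Subgroup G} (hA : IsMaxAbelian (S : Subgroup G) A) (hAQ : ¬ A ≤ pCore 2 G) :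
    Involves (Equiv.Perm (Fin 4)) G := by
  obtain ⟨Z, hZdef⟩ : ∃ Z : Subgroup G, Z = pCore 2 G ⊓ Subgroup.centralizer (pCore 2 G : Set G) :=
    ⟨_, rfl⟩
  obtain ⟨V, hV⟩ : ∃ V : Subgroup G, V = omegaOne 2 Z := ⟨_, rfl⟩
  haveI : Z.Normal := hZdef ▸ inferInstance
  haveI hVn : V.Normal := hV ▸ omegaOne_normal Z
  have hZab : IsMulCommutative Z := isMulCommutative_iff_le_centralizer.2
    (hZdef ▸ ThompsonJ.inf_centralizer_le_centralizer_self _)
  have hVel : IsElementaryAbelian 2 V := hV ▸
    ThompsonJ.isElementaryAbelian_omegaOne (isMulCommutative_iff_le_centralizer.1 hZab)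
  have hVe : ∀ v ∈ V, v * v = 1 := fun v hv => by
    simpa [pow_two] using hVel.2 v hv
  have hVZ : V ≤ Z := hV ▸ ThompsonJ.omegaOne_le 2 Z
  have hVQ : V ≤ pCore 2 G := hVZ.trans (hZdef ▸ inf_le_left)
  have hZp : IsPGroup 2 Z := (Cores.isPGroup_pCore 2 G).to_le (hZdef ▸ inf_le_left)
  have hQV : pCore 2 G ≤ Subgroup.centralizer (V : Set G) :=
    Subgroup.le_centralizer_iff.1 ((hVZ.trans (hZdef ▸ inf_le_right)))
  have hcontra : ¬ ∀ k : G, (orderOf k).Coprime 2 → k ∈ Subgroup.centralizer (V : Set G) := by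
    intro hall
    obtain ⟨k, hk, hk1⟩ := exists_coprime_ne_one h.not_hasComplement
    have hzS : ((S : Subgroup G) ⊓ Subgroup.centralizer ((S : Subgroup G) : Set G) : Subgroup G)
        ≤ Z := by
      rintro z ⟨_, hzc⟩
      have hc : z ∈ Subgroup.centralizer (pCore 2 G : Set G) :=
        Subgroup.centralizer_le (Cores.pCore_le_sylow S) hzc
      exact hZdef ▸ ⟨h.centralizer_le hc, hc⟩
    have hkZ : k ∈ Subgroup.centralizer (Z : Set G) :=
      mem_centralizer_of_omegaOne hZab hZp
        (Subgroup.le_normalizer_of_normal (Subgroup.mem_top k)) hk (hV ▸ hall k hk)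
    refine h.not_hasComplement ?_
    have htop := h.eq_top (M := Subgroup.centralizer
      (((S : Subgroup G) ⊓ Subgroup.centralizer ((S : Subgroup G) : Set G) : Subgroup G) : Set G))
      (fun s hs z hz => ((hz.2 s hs).symm)) (Subgroup.centralizer_le hzS hkZ) hk hk1
    rw [htop] at hZ
    exact (hasNormalPComplement_congr Subgroup.topEquiv).1 hZ
  have hCV : Subgroup.centralizer (V : Set G) ≤ pCore 2 G := by
    refine Cores.le_pCore (isPGroup_of_forall_coprime fun c hc hc' => ?_)
    by_contra hc1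
    exact hcontra fun k hk => h.mem_of_normal hc hc' hc1 hk
  have hoff : ∀ B ≤ A, Nat.card B * Nat.card ↥(V ⊓ Subgroup.centralizer (B : Set G)) ≤
      Nat.card A * Nat.card ↥(V ⊓ Subgroup.centralizer (A : Set G)) := by
    intro B hB
    refine (card_mul_card_le_card_sup_mul_card_inf B _).trans (Nat.mul_le_mul ?_ ?_)
    · refine hA.card_le _ (sup_le (hB.trans hA.le)
        (inf_le_left.trans (hVQ.trans (Cores.pCore_le_sylow S)))) ?_
      have hBc : B ≤ Subgroup.centralizer (B : Set G) :=
        (hB.trans (isMulCommutative_iff_le_centralizer.1 hA.comm)).trans (Subgroup.centralizer_le hB)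
      have hUc : V ⊓ Subgroup.centralizer (B : Set G) ≤
          Subgroup.centralizer ((V ⊓ Subgroup.centralizer (B : Set G) : Subgroup G) : Set G) :=
        inf_le_left.trans ((isMulCommutative_iff_le_centralizer.1 hVel.1).trans
          (Subgroup.centralizer_le inf_le_left))
      rw [isMulCommutative_iff_le_centralizer, Subgroup.le_centralizer_iff]
      refine sup_le ?_ ?_ <;> rw [Subgroup.le_centralizer_iff] <;> refine sup_le ?_ ?_
      · exact hBc
      · exact inf_le_right
      · exact Subgroup.le_centralizer_iff.1 inf_le_right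
      · exact hUc
    · refine Nat.le_of_dvd Nat.card_pos (Subgroup.card_dvd_of_le ?_)
      rintro x ⟨hxB, hxV, _⟩
      exact ⟨hxV, isMulCommutative_iff_le_centralizer.1 hA.comm (hB hxB)⟩
  obtain ⟨B, hBA, hBV, hBoff, hquad⟩ := exists_minimal_offender hVel.1 hA.comm (hZp.to_le hVZ)
    (S.2.to_le hA.le) Subgroup.le_normalizer_of_normal (fun hle => hAQ (hle.trans hCV)) hoff
  have hBab : IsMulCommutative B := isMulCommutative_iff_le_centralizer.2
    ((hBA.trans (isMulCommutative_iff_le_centralizer.1 hA.comm)).trans (Subgroup.centralizer_le hBA))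
  obtain ⟨b, hbB, hbV⟩ := SetLike.not_le_iff_exists.1 hBV
  obtain ⟨k, hk, hkQ⟩ : ∃ k : G, (orderOf k).Coprime 2 ∧ ⁅b, k⁆ ∉ pCore 2 G := by
    by_contra hne
    push Not at hne
    exact hbV (hQV (h.faith b (hA.le (hBA hbB)) hne))
  refine involves_perm_four_of_offender hVe hBab hBoff hquad (fun x y hx hy => ?_) hbB hk
    fun hmem => hkQ (hCV hmem)
  obtain ⟨g, rfl⟩ := QuotientGroup.mk_surjective x
  obtain ⟨l, rfl⟩ := QuotientGroup.mk_surjective y
  obtain ⟨e, he⟩ := exists_pow_coprime_orderOf (p := 2) (isOfFinOrder_of_finite g)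
  obtain ⟨f, hf⟩ := exists_pow_coprime_orderOf (p := 2) (isOfFinOrder_of_finite l)
  obtain ⟨m, hm⟩ := exists_pow_eq_self_of_coprime (hx.symm.pow_left e)
  obtain ⟨n, hn⟩ := exists_pow_eq_self_of_coprime (hy.symm.pow_left f)
  have hc : Commute (QuotientGroup.mk' (Subgroup.centralizer (V : Set G)) (g ^ 2 ^ e))
      (QuotientGroup.mk' (Subgroup.centralizer (V : Set G)) (l ^ 2 ^ f)) := by
    refine commutatorElement_eq_one_iff_mul_comm.1 ?_
    rw [← map_commutatorElement]
    exact (QuotientGroup.eq_one_iff _).2 (hQV (h.comm _ _ he hf))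
  rw [← hm, ← hn]
  simpa only [QuotientGroup.mk'_apply, QuotientGroup.mk_pow] using hc.pow_pow m n

end Critical

/-- **Thompson's normal `2`-complement theorem for `S₄`-free groups**, abelian version of `J`. -/
theorem hasNormalPComplement_two_of_thompsonA {G : Type u} [Group G] [Finite G]
    [Fact (Nat.Prime 2)] (hS4 : ¬ Involves (Equiv.Perm (Fin 4)) G) (P : Sylow 2 G)
    (hJ : HasNormalPComplement 2
      ↥(Subgroup.normalizer (thompsonSubgroupAOf (P : Subgroup G) : Set G)))
    (hZ : HasNormalPComplement 2 ↥(Subgroup.centralizer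
      (((P : Subgroup G) ⊓ Subgroup.centralizer ((P : Subgroup G) : Set G) : Subgroup G) : Set G))) :
    HasNormalPComplement 2 G := by
  refine hasNormalPComplement_of_thompsonHyp_hered (P := fun H _ => ¬ Involves (Equiv.Perm (Fin 4)) H)
    isPFunctor_thompsonSubgroupAOf isPFunctor_center ?_ ?_ hS4
    (fun H _ _ S hH h hS => ?_) P ⟨hJ, hZ⟩
  · exact fun H _ M hH h' => hH
      (Amalgams.involves_of_involves_image (A := M) (MonoidHom.id M) h' Function.surjective_id)
  · exact fun H _ N _ hH h' => hH (Amalgams.involves_of_involves_image (A := (⊤ : Subgroup H))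
      ((QuotientGroup.mk' N).comp (⊤ : Subgroup H).subtype) h' fun y => by
        obtain ⟨g, rfl⟩ := QuotientGroup.mk'_surjective N y
        exact ⟨⟨g, trivial⟩, rfl⟩)
  by_cases hQ : ∀ A, IsMaxAbelian (S : Subgroup H) A → A ≤ pCore 2 H
  · refine h.not_hasComplement ?_
    have e := thompsonSubgroupAOf_eq_of_le (Cores.pCore_le_sylow S)
      (thompsonSubgroupAOf_le_iff.2 hQ)
    have h1 : Subgroup.normalizer (thompsonSubgroupAOf (S : Subgroup H) : Set H) = ⊤ := by
      rw [← e]
      exact top_le_iff.1 ((Subgroup.le_normalizer_of_normal (H := pCore 2 H)).trans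
        (normalizer_le_normalizer_thompsonSubgroupAOf (pCore 2 H)))
    have h2 := hS.1
    rw [h1] at h2
    exact (hasNormalPComplement_congr Subgroup.topEquiv).1 h2
  · push Not at hQ
    obtain ⟨A, hA, hAQ⟩ := hQ
    exact hH (involves_perm_four_of_isCritical h hS.2 hA hAQ)

end CfsgLib.NormalPComplement
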